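import Mathlib
import Cfsg.Agent.Perm.SieveChk

/-! The principal `7`-block of a simple group of order `6048`. -/

set_option autoImplicit false

open Subgroup Function Finset
open Cfsg.Agent.Char Cfsg.Agent.Block Cfsg.Agent.Perm Cfsg.Agent.Perm.Sieve

namespace Cfsg.Agent.U33

variable {G : Type*} [Group G] [Finite G] [IsSimpleGroup G] (hG : ¬ IsMulCommutative G)
include hG

theorem exists_numData'' {p : ℕ} (hp : p.Prime) (hd : p ∣ Nat.card G) (hsq : ¬ p ^ 2 ∣ Nat.card G) :
    ∃ d e c M X Y ζ a, IsPModular p M ∧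
      (∀ r : ℕ, r.Prime → r ≠ p → (r ∣ c ↔ ∃ g : G, p ∣ orderOf g ∧ r ∣ orderOf g)) ∧
      SylNum (Nat.card G) p d e c ∧ BrData (G := G) p e c M X Y ζ a ∧
      NumData (Nat.card G) p e c (X.val.map fun χ => a χ * charDegree χ.1) (a ζ * charDegree ζ.1) := by
  classical
  obtain ⟨d, e, c, hS, hc, hB⟩ := exists_brData hG hp hd hsq
  obtain ⟨M, hM⟩ := exists_isPModular hp
  obtain ⟨X, Y, ζ, a, h⟩ := hB M hM
  have hζ : ζ ∉ X := fun h1 => disjoint_left.mp h.disj h1 h.memY
  let s : IrrCharacter G → ℤ := fun χ => a χ * charDegree χ.1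
  have hZ : s ζ ::ₘ X.val.map s = (X.cons ζ hζ).val.map s := by
    rw [cons_val, Multiset.map_cons]
  have hs : ∀ χ ∈ X.cons ζ hζ, (s χ).natAbs = charDegree χ.1 ∧ χ ∈ principalBlock M G ∧
      χ ≠ oneIrr G := fun χ hχ => by
    rcases mem_cons.mp hχ with rfl | hχ
    · exact ⟨natAbs_sign_mul h.signY _, (h.mem _).mpr (Or.inr (Or.inr h.memY)),
        fun e => h.oneY (e ▸ h.memY)⟩
    · exact ⟨natAbs_sign_mul (h.signX χ hχ) _, (h.mem _).mpr (Or.inr (Or.inl hχ)),
        fun e => h.oneX (e ▸ hχ)⟩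
  have hY : (p - 1) / e = Y.card := by
    rw [← h.cardY, Nat.add_sub_cancel, Nat.mul_div_cancel _ (by have := hS.lt; omega)]
  suffices NumData (Nat.card G) p e c (X.val.map s) (s ζ) from ⟨d, e, c, M, X, Y, ζ, a, hM, hc, hS, h, this⟩
  refine ⟨by simpa using h.cardX, ?_,
    (eq_neg_of_add_eq_zero_right (h.rel_one hp)), ?_, ?_, fun r hr hrn hrp hrc => ?_, ?_⟩
  · intro y hy
    obtain ⟨χ, hχ, rfl⟩ := Multiset.mem_map.mp hy
    exact h.degX χ hχ
  · intro y hy
    obtain ⟨χ, hχ, rfl⟩ := Multiset.mem_map.mp (hZ ▸ hy)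
    obtain ⟨h1, h2, h3⟩ := hs χ hχ
    rw [h1]
    exact ⟨two_le_degree hG h3, isIrr_degree_dvd_card χ.2 (irr_degree_cast χ).symm,
      h.lo χ h2 h3, h.def0 χ h2⟩
  · have h1 : ∑ χ : IrrCharacter G, charDegree χ.1 ^ 2 = Nat.card G := by
      have := sum_irr_one_sq (G := G)
      simp_rw [← irr_degree_cast] at this
      exact_mod_cast this
    have h2 := sum_le_sum_of_subset (f := fun χ : IrrCharacter G => charDegree χ.1 ^ 2)
      (subset_univ (insert (oneIrr G) (X ∪ Y)))
    rw [sum_insert (by simp [h.oneX, h.oneY]), sum_union h.disj, h1, sum_congr rfl fun χ hχ =>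
      congrArg (· ^ 2) (h.degY hp hχ), sum_const, coe_oneIrr, charDegree_one_fun] at h2
    rw [hY, (hs ζ (mem_cons_self _ _)).1, Multiset.map_map, Multiset.map_congr
      (f := _ ∘ s) rfl fun χ hχ => congrArg (· ^ 2) (hs χ (mem_cons_of_mem hχ)).1]
    exact lt_of_lt_of_le (Nat.lt_one_add_iff.mpr le_rfl) h2
  · obtain ⟨M', hM'⟩ := exists_isPModular hr
    have h1 : oneIrr G ∉ X.cons ζ hζ := fun h1 => (hs _ h1).2.2 rfl
    have h2 := dvd_sum_principal hM' ((X.cons ζ hζ).cons _ h1) (update a (oneIrr G) 1)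
      fun g hg => by
        rw [sum_cons, sum_congr rfl fun χ hχ => by rw [update_of_ne (hs χ hχ).2.2], sum_cons,
          ← h.rel g fun h => hrc ((hc r hr hrp).mpr ⟨g, h, hg⟩)]
        simp [add_comm, add_left_comm]
    rw [filter_cons, if_pos (oneIrr_mem_principalBlock hM'), sum_cons, update_self, coe_oneIrr,
      charDegree_one_fun, sum_congr rfl fun χ hχ => by
        rw [update_of_ne (hs χ (mem_filter.mp hχ).1).2.2]] at h2
    refine ⟨((X.cons ζ hζ).filter (· ∈ principalBlock M' G)).val.map s, hZ ▸ Multiset.map_le_map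
      (Multiset.filter_le _ _), h2, fun y hy => ?_, fun hr2 => ?_⟩
    · obtain ⟨χ, hχ, rfl⟩ := Multiset.mem_map.mp hy
      obtain ⟨h3, h4⟩ := mem_filter.mp hχ
      rw [(hs χ h3).1]
      refine ⟨fun h5 => (hs χ h3).2.2 ?_, fun k hk => (hs χ h3).2.2
        (eq_one_of_degree_pow hG hM' h4 hk)⟩
      have := blockOf_eq_singleton hM' ((hr.pow_dvd_iff_le_factorization
        (irr_degree_ne_zero χ)).mp h5)
      rw [← block_eq_blockOf hM' isPBlock_principalBlock h4] at this
      exact (this ▸ oneIrr_mem_principalBlock hM' : oneIrr G ∈ ({χ} : Set _)).symm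
    · obtain ⟨d', e', c', hS', hc', hB'⟩ := exists_brData hG hr hrn hr2
      obtain ⟨X', Y', ζ', a', h'⟩ := hB' M' hM'
      refine ⟨d', e', c', hS', fun h3 => ?_, fun y hy => ?_⟩
      · obtain ⟨g, h4, h5⟩ := (hc' p hp hrp.symm).mp h3
        exact hrc ((hc r hr hrp).mpr ⟨g, h5, h4⟩)
      · obtain ⟨χ, hχ, rfl⟩ := Multiset.mem_map.mp hy
        obtain ⟨h3, h4⟩ := mem_filter.mp hχ
        rw [(hs χ h3).1]
        have := Nat.le_of_dvd (by have := hr.two_le; omega) hS'.dvd
        exact h'.degOK hr (by have := hr.pos; omega) h4 (hs χ h3).2.2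
  · intro x hx r hr m hm hm0
    have := Fact.mk hr
    obtain ⟨R⟩ : Nonempty (Sylow r G) := inferInstance
    let T := univ.filter fun χ : IrrCharacter G => χ ∈ principalBlock M G ∧ charDegree χ.1 = x
    have hT : T.card = m := by
      have h1 : T = X.filter (fun χ => charDegree χ.1 = x) ∪ Y.filter (charDegree ·.1 = x) := by
        ext χ
        simp only [T, mem_filter, mem_univ, true_and, h.mem, mem_union, or_and_right]
        exact or_iff_right fun ⟨h1, h2⟩ => by
          rw [h1, coe_oneIrr, charDegree_one_fun] at h2; omega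
      rw [h1, card_union_of_disjoint (disjoint_filter_filter h.disj), hm, Multiset.filter_map,
        Multiset.card_map, hY, (hs ζ (mem_cons_self _ _)).1, filter_congr (s := Y) fun χ hχ => by
          rw [h.degY hp hχ], filter_const]
      congr 1
      · exact congrArg Multiset.card (Multiset.filter_congr fun χ hχ => by
          rw [comp_apply, (hs χ (mem_cons_of_mem hχ)).1])
      · split_ifs <;> rfl
    have hψ := isChar_sum T fun χ _ => irr_isChar χ
    rw [← R.card_eq_multiplicity]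
    refine schur_dvd hψ ?_ hr R.isPGroup' (fun g _ hg => ?_) fun g _ =>
      GaloisAut.exists_int_of_forall_aut (isChar_isIntegral hψ g) fun σ => ?_
    · rw [Finset.sum_apply, sum_congr rfl fun χ hχ => (irr_degree_cast χ).symm.trans
        (congrArg _ (mem_filter.mp hχ).2.2), sum_const, hT, nsmul_eq_mul, Nat.cast_mul]
    · obtain ⟨χ, hχ⟩ := card_pos.mp (hT ▸ Nat.pos_of_ne_zero hm0)
      rw [← add_sum_erase _ _ hχ] at hg
      have := ((isChar_add_eq_one_iff (irr_isChar χ) (isChar_sum _ fun χ _ => irr_isChar χ)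
        g).mp hg).1
      refine (charKer_eq_bot_of_simple χ.2 fun e => ?_).le ((mem_charKer_iff (irr_isChar χ)).mpr this)
      have := (mem_filter.mp hχ).2.2
      rw [e, charDegree_one_fun] at this
      omega
    · obtain ⟨k, hk, hσ⟩ := Galois.exists_pow_forall (G := G) σ.toRingHom
      refine (hσ _ (isChar_isGenChar hψ) g).trans ?_
      let f : IrrCharacter G → IrrCharacter G := fun χ => ⟨_, Galois.isIrr_pow_arg χ.2 hk⟩
      have hf : Injective f := fun χ ψ e => Subtype.ext (funext fun g => by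
        obtain ⟨g, rfl⟩ := (powCoprime hk.symm).surjective g
        exact congrFun (congrArg Subtype.val e) g)
      have h1 : T.image f = T := eq_of_subset_of_card_le (image_subset_iff.mpr fun χ hχ =>
        mem_filter.mpr ⟨mem_univ _, pow_mem_principal hM (mem_filter.mp hχ).2.1 hk, by
          simpa [f, charDegree] using (mem_filter.mp hχ).2.2⟩) (card_image_of_injective _ hf).ge
      conv_rhs => rw [← h1, sum_image hf.injOn]
      simp [Finset.sum_apply, f]

omit hG in
theorem exists_chars (hn : Nat.card G = 6048) : ∃ χ St θ : IrrCharacter G, charDegree χ.1 = 6 ∧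
    charDegree St.1 = 27 ∧ charDegree θ.1 = 32 ∧ (∀ g, ∃ l : ℤ, χ.1 g = l) ∧
    (∀ g, ¬ 7 ∣ orderOf g → 1 - χ.1 g - St.1 g + θ.1 g = 0) ∧
    ∀ r : ℕ, r.Prime → r ≠ 7 → ∀ g : G, 7 ∣ orderOf g → ¬ r ∣ orderOf g := by
  classical
  have hG : ¬ IsMulCommutative G := not_comm_of_not_prime (by rw [hn]; norm_num)
  have hp : Nat.Prime 7 := by norm_num
  obtain ⟨d, e, c, M, X, Y, ζ, a, hM, hc, hS, hB, h⟩ := exists_numData'' hG hp (by rw [hn]; norm_num)
    (by rw [hn]; norm_num)
  rw [hn] at hS h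
  have h1 := List.all_eq_true.1 (show ((cands 6048 7).all fun ec => ec == (3, 1) ||
    go (fin 6048 7 ec.1 ec.2) (degList 6048 7 ec.2 80) (ec.1 - 1) 6048 []) = true by decide +kernel) _
    (mem_cands hp (by norm_num) hS)
  rw [Bool.or_eq_true, beq_iff_eq, Prod.mk.injEq] at h1
  obtain ⟨rfl, rfl⟩ := h1.resolve_right fun h8 => by
    obtain ⟨l, h6, h7⟩ := go_sound _ _ _ _ _ _ h8
      (fun y hy => mem_degList h (by norm_num) (by norm_num) (by norm_num) hy) (by rw [← h.card]; rfl)
      ((Nat.le_add_right _ _).trans h.sq.le)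
    rw [Multiset.coe_nil, add_zero] at h6
    exact fin_eq_false (h6 ▸ h) (by norm_num) (by norm_num) h7
  obtain ⟨l, h6, h7⟩ := go_sound (fun l => fin 6048 7 3 1 l || l == [-27, -6]) (degList 6048 7 1 80) 2 6048 [] _
    (by decide +kernel) (fun y hy => mem_degList h (by norm_num) (by norm_num) (by norm_num) hy)
    (by have := h.card; omega) ((Nat.le_add_right _ _).trans h.sq.le)
  rw [Multiset.coe_nil, add_zero] at h6
  rw [Bool.or_eq_true, beq_iff_eq] at h7
  obtain rfl := h7.resolve_left (fin_eq_false (h6 ▸ h) (by norm_num) (by norm_num))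
  obtain ⟨χ, hχ, e1⟩ := Multiset.mem_map.1 (h6 ▸ (by simp : (-6 : ℤ) ∈ (([-27, -6] : List ℤ) : Multiset ℤ)))
  obtain ⟨St, hSt, e2⟩ := Multiset.mem_map.1 (h6 ▸ (by simp : (-27 : ℤ) ∈ (([-27, -6] : List ℤ) : Multiset ℤ)))
  have hne : χ ≠ St := fun e => by rw [e, e2] at e1; omega
  have hX : {χ, St} = X := eq_of_subset_of_card_le (insert_subset hχ (singleton_subset_iff.2 hSt)) (by
    rw [card_pair hne]; have := hB.cardX; omega)
  have a1 : a χ = -1 ∧ charDegree χ.1 = 6 := by rcases hB.signX χ hχ with e | e <;> rw [e] at e1 <;> omega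
  have a2 : a St = -1 ∧ charDegree St.1 = 27 := by rcases hB.signX St hSt with e | e <;> rw [e] at e2 <;> omega
  have h8 := hB.rel_one hp
  rw [← hX, sum_pair hne, e1, e2] at h8
  have a3 : a ζ = 1 ∧ charDegree ζ.1 = 32 := by rcases hB.signY with e | e <;> rw [e] at h8 <;> omega
  refine ⟨χ, St, ζ, a1.2, a2.2, a3.2, fun g => ?_, fun g hg => ?_, fun r hr h7 g h1 h2 =>
    hr.not_dvd_one ((hc r hr h7).2 ⟨g, h1, h2⟩)⟩
  · refine GaloisAut.exists_int_of_forall_aut (isChar_isIntegral (irr_isChar χ) g) fun σ => ?_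
    obtain ⟨k, hk, hσ⟩ := Galois.exists_pow_forall (G := G) σ.toRingHom
    refine (hσ _ (isChar_isGenChar (irr_isChar χ)) g).trans ?_
    have h2 := (hB.mem _).1 (pow_mem_principal hM ((hB.mem χ).2 (Or.inr (Or.inl hχ))) hk)
    generalize hψ : (⟨fun g => χ.1 (g ^ k), Galois.isIrr_pow_arg χ.2 hk⟩ : IrrCharacter G) = ψ at h2
    have h3 : charDegree ψ.1 = 6 := by rw [← hψ, ← a1.2]; simp [charDegree]
    have h4 : ψ = χ := by
      rcases h2 with rfl | h2 | h2
      · rw [coe_oneIrr, charDegree_one_fun] at h3; omega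
      · rw [← hX, mem_insert, mem_singleton] at h2
        exact h2.resolve_right fun e => by rw [e] at h3; omega
      · rw [hB.degY hp h2] at h3; omega
    exact congrArg (fun ψ : IrrCharacter G => ψ.1 g) (hψ.trans h4)
  · have := hB.rel g hg
    rw [← hX, sum_pair hne, a1.1, a2.1, a3.1] at this
    rw [← this]; push_cast; ring

end Cfsg.Agent.U33
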