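import Mathlib
import Cfsg.Agent.U33.A
import Cfsg.Agent.U33.CV
import Cfsg.Agent.O12.C
import Cfsg.Agent.Block.Misc

/-! The character of degree `6` of a simple group of order `6048`. -/

set_option autoImplicit false
set_option linter.unusedSectionVars false

namespace Cfsg.Agent.U33

open Cfsg.Agent.Core Cfsg.Agent.Char Cfsg.Agent.Block Cfsg.Agent.Gl23 Subgroup

variable {G : Type*} [Group G] [Finite G]

theorem sum_zpowers {a : G} {n : ℕ} (ha : orderOf a = n) [Fintype (zpowers a)] (f : G → ℤ) :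
    ∑ x : zpowers a, f x = ∑ i ∈ Finset.range n, f (a ^ i) := by
  rw [← (finEquivZPowers (isOfFinOrder_of_finite a)).sum_comp, ← ha, Finset.sum_range]
  exact Finset.sum_congr rfl fun i _ => rfl

theorem sum_prod {χ : G → ℂ} (hχ : IsCharacter G χ) {v : G → ℤ} (hv : ∀ g, χ g = v g) (A B : Subgroup G)
    [Fintype A] [Fintype B] (hc : ∀ a ∈ A, ∀ b ∈ B, Commute a b) :
    ∃ n : ℕ, ∑ b : B, ∑ a : A, v (a * b) = Nat.card A * Nat.card B * n := by
  obtain ⟨n, hn⟩ := exists_sum_eq (isChar_comp (A.subtype.noncommCoprod B.subtype fun a b => hc a a.2 b b.2) hχ)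
  refine ⟨n, Int.cast_injective (α := ℂ) ?_⟩
  rw [Nat.card_prod, Fintype.sum_prod_type_right] at hn
  push_cast at hn ⊢
  rw [← hn]
  exact Finset.sum_congr rfl fun b _ => Finset.sum_congr rfl fun a _ => (hv _).symm

variable [IsSimpleGroup G]

theorem exists_cv (hn : Nat.card G = 6048) (h9 : ∀ g : G, orderOf g ≠ 9) : ∃ v : G → ℤ, CV v := by
  classical
  have := Fintype.ofFinite G
  obtain ⟨χ, St, θ, d1, d2, d3, hv, hrel, h7⟩ := exists_chars hn
  choose v hv using hv
  have hχ := irr_isChar χ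
  have hG : ¬ IsMulCommutative G := Perm.not_comm_of_not_prime (by rw [hn]; norm_num)
  have v1 : v 1 = 6 := Int.cast_injective (α := ℂ) (by rw [← hv, ← irr_degree_cast, d1]; simp)
  have vinv : ∀ x, v x⁻¹ = v x := fun x => Int.cast_injective (α := ℂ) (by
    rw [← hv, isChar_inv hχ, hv]; simp)
  have vlt : ∀ g ≠ 1, (v g).natAbs < 6 := fun g hg => by
    have h2 := isChar_norm_le hχ g (irr_degree_cast χ).symm
    have h3 : center G = ⊥ := (IsSimpleGroup.eq_bot_or_eq_top_of_normal _ inferInstance).resolve_right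
      fun h => hG (isMulCommutative_of_center_eq_top h)
    have h4 : ‖χ.1 g‖ = ((v g).natAbs : ℝ) := by rw [hv, Complex.norm_intCast, Nat.cast_natAbs, Int.cast_abs]
    rw [← d1]
    refine lt_of_le_of_ne (by exact_mod_cast h4 ▸ h2) fun e => hg ?_
    have := (mem_charCenter_iff (irr_isChar χ) (z := g)).2 (by
      rw [h4, e, ← irr_degree_cast, Complex.norm_natCast])
    rwa [charCenter_eq_center χ.2 (charKer_eq_bot_of_simple χ.2 fun e => by
      rw [e, charDegree_one_fun] at d1; omega), h3, mem_bot] at this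
  have six : ∀ u w : G, orderOf u = 2 → orderOf w = 3 → Commute w u → v (w * u) = 1 := fun u w hu hw hc => by
    have o6 := hc.orderOf_mul_eq_mul_orderOf_of_coprime (by rw [hu, hw]; norm_num)
    rw [hu, hw] at o6
    have := hrel (w * u) (by rw [o6]; norm_num)
    rw [vanish_of_dvd (χ := St) (k := 3) Nat.prime_three (by rw [hn]; norm_num) (irr_degree_cast St).symm
      (by rw [d2]; norm_num) _ (by rw [o6]; norm_num), vanish_of_dvd (χ := θ) (k := 5) Nat.prime_two
      (by rw [hn]; norm_num) (irr_degree_cast θ).symm (by rw [d3]; norm_num) _ (by rw [o6]; norm_num), hv] at this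
    exact Int.cast_injective (α := ℂ) (by push_cast; linear_combination -this)
  have vsum : ∀ (D : Subgroup G) [Fintype D], ∃ n : ℕ, ∑ d : D, v d = Nat.card D * n := fun D _ => by
    obtain ⟨n, hn⟩ := exists_sum_eq (isChar_comp D.subtype hχ)
    exact ⟨n, Int.cast_injective (α := ℂ) (by push_cast; rw [← hn]; simp [hv])⟩
  have ord3 : ∀ {D : Subgroup G}, Nat.card D = 9 → ∀ d ∈ D, d ≠ 1 → orderOf d = 3 := fun {D} hD d hd d1 => by
    have h1 : orderOf d ∣ 3 ^ 2 := (D.orderOf_dvd_natCard hd).trans (by rw [hD]; norm_num)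
    obtain ⟨i, hi, e⟩ := (Nat.dvd_prime_pow Nat.prime_three).1 h1
    have := h9 d
    interval_cases i
    · exact absurd (orderOf_eq_one_iff.1 e) d1
    · exact e
    · exact absurd e this
  refine ⟨v, hn, fun g x => Int.cast_injective (α := ℂ) (by rw [← hv, ← hv, isChar_classFun hχ]), vinv, v1,
    fun w hw => ?_, vsum, fun D _ => ?_, fun a b ha hb hc => ?_, fun u hu D hD hc => ?_, fun u w hu hw hc => ?_,
    fun g hg => ?_⟩
  · have h1 := O12.sub_dvd hχ Nat.prime_three (hw ▸ pow_orderOf_eq_one w) (Commute.one_right w).eq (hv _) (hv _)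
    have h2 := vlt w fun e => by simp [e] at hw
    rw [mul_one, v1] at h1
    omega
  · obtain ⟨n, hn⟩ := exists_sum_eq (isChar_comp D.subtype (isChar_mul hχ hχ))
    exact ⟨n, Int.cast_injective (α := ℂ) (by push_cast; rw [← hn]; simp [hv, sq])⟩
  · have hc' : Commute a b := hc
    obtain ⟨n, h1⟩ := sum_prod hχ hv (zpowers a) (zpowers b) (by
      rintro _ ⟨i, rfl⟩ _ ⟨j, rfl⟩; exact hc'.zpow_zpow i j)
    have a3 : a ^ 3 = 1 := ha ▸ pow_orderOf_eq_one a
    have b3 : b ^ 3 = 1 := hb ▸ pow_orderOf_eq_one b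
    have q : ∀ x : G, x ^ 3 = 1 → v (x ^ 2) = v x := fun x hx => by
      rw [← vinv x, eq_inv_of_mul_eq_one_left (show x ^ 2 * x = 1 by rw [← pow_succ, hx])]
    rw [sum_zpowers hb fun y => ∑ x : zpowers a, v (x * y), Finset.sum_congr rfl fun i _ =>
      sum_zpowers ha fun x => v (x * b ^ i), Nat.card_zpowers, Nat.card_zpowers, ha, hb] at h1
    have q1 := q a a3
    have q2 := q b b3
    have q3 := q (a * b) (by rw [hc'.mul_pow, a3, b3, one_mul])
    have q4 := q (a * b ^ 2) (by rw [(hc'.pow_right 2).mul_pow, a3, ← pow_mul, mul_comm 2 3, pow_mul, b3]; simp)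
    rw [hc'.mul_pow] at q3
    rw [(hc'.pow_right 2).mul_pow, ← pow_mul, show 2 * 2 = 3 + 1 from rfl, pow_succ b 3, b3, one_mul] at q4
    simp only [Finset.sum_range_succ, Finset.sum_range_zero, pow_zero, pow_one, one_mul, mul_one] at h1
    exact ⟨n, by push_cast at h1; omega⟩
  · obtain ⟨n, h1⟩ := sum_prod hχ hv D (zpowers u) (by
      rintro d hd _ ⟨j, rfl⟩; exact (show Commute d u from hc d hd).zpow_right j)
    obtain ⟨m, h2⟩ := vsum D
    rw [sum_zpowers hu fun y => ∑ x : D, v (x * y), Nat.card_zpowers, hu, hD] at h1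
    simp only [Finset.sum_range_succ, Finset.sum_range_zero, pow_zero, pow_one, mul_one] at h1
    rw [h2, hD, ← Finset.add_sum_erase _ _ (Finset.mem_univ (1 : D)), Finset.sum_congr rfl fun (d : D) hd =>
      six u d hu (ord3 hD d d.2 fun e => (Finset.mem_erase.1 hd).1 (Subtype.ext e)) (hc d d.2), Finset.sum_const,
      Finset.card_erase_of_mem (Finset.mem_univ _), Finset.card_univ, ← Nat.card_eq_fintype_card, hD] at h1
    obtain ⟨k, -, hk⟩ := inv_val (commutator_top (by rw [hn]; norm_num)) hχ (irr_degree_cast χ).symm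
      (hu ▸ pow_orderOf_eq_one u)
    rw [hv, d1, Int.cast_inj] at hk
    have h3 := vlt u fun e => by simp [e] at hu
    obtain ⟨d, hd⟩ := ne_bot_iff_exists_ne_one.1 (show D ≠ ⊥ from fun e => by simp [e] at hD)
    have o3 := ord3 hD d d.2 fun e => hd (Subtype.ext e)
    have h4 := O12.sub_dvd hχ Nat.prime_three (o3 ▸ pow_orderOf_eq_one (d : G)) (hc d d.2) (hv _) (hv _)
    rw [six u d hu o3 (hc d d.2)] at h4
    simp at h1
    omega
  · have h4 := O12.sub_dvd hχ Nat.prime_two (hu ▸ pow_orderOf_eq_one u) hc (hv _) (hv _)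
    rw [hc, six u w hu hw hc.symm] at h4
    omega
  · have h1 : orderOf g ∣ 7 * (2 ^ 5 * 3 ^ 3) := (orderOf_dvd_natCard g).trans (by rw [hn]; norm_num)
    obtain ⟨k, hk⟩ := hg
    have h2 : k ∣ 2 ^ 5 * 3 ^ 3 := Nat.dvd_of_mul_dvd_mul_left (by norm_num) (hk ▸ h1)
    have h3 := h7 2 Nat.prime_two (by norm_num) g ⟨k, hk⟩
    have h4 := h7 3 Nat.prime_three (by norm_num) g ⟨k, hk⟩
    rw [hk] at h3 h4 ⊢
    rw [Nat.Coprime.eq_one_of_dvd (Nat.Coprime.mul_right (Nat.Coprime.pow_right _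
      ((Nat.Prime.coprime_iff_not_dvd Nat.prime_two).2 fun h => h3 (h.mul_left 7)).symm) (Nat.Coprime.pow_right _
      ((Nat.Prime.coprime_iff_not_dvd Nat.prime_three).2 fun h => h4 (h.mul_left 7)).symm)) h2]

theorem exists_ti (hn : Nat.card G = 6048) (Q : Sylow 3 G) :
    ∃ x : G, (Q : Subgroup G) ⊓ (Q : Subgroup G).map (MulAut.conj x).toMonoidHom = ⊥ := by
  obtain ⟨χ, St, θ, d1, d2, -⟩ := exists_chars hn
  obtain ⟨M, hM⟩ := exists_isPModular Nat.prime_three
  have f1 : (Nat.card G).factorization 3 ≤ (charDegree St.1).factorization 3 := by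
    rw [hn, d2, show 6048 = 27 * 224 from rfl, Nat.factorization_mul (by norm_num) (by norm_num), Finsupp.add_apply,
      Nat.factorization_eq_zero_of_not_dvd (n := 224) (by norm_num)]
    rfl
  have hB := isPBlock_blockOf (M := M) St
  obtain ⟨D, hD⟩ := exists_isDefectGroup hM hB
  have h1 := card_defectGroup hM hB hD
  rw [blockOf_eq_singleton hM f1, blockDefect, Set.image_singleton, csInf_singleton, Nat.sub_eq_zero_of_le f1,
    pow_zero, card_eq_one] at h1
  subst h1
  obtain ⟨x, -, -, h⟩ := green_inter hM hB hD Q.isPGroup' bot_le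
  exact ⟨x, h⟩

end Cfsg.Agent.U33
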