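import Mathlib
import Cfsg.Agent.U33.CV
import Cfsg.Agent.Perm.Small

/-!
A simple group of order `6048` with the character values `CV` has `28` Sylow `3`-subgroups.
-/

set_option autoImplicit false

namespace Cfsg.Agent.U33

open Subgroup MulAction Cfsg.Agent.Core Cfsg.Agent.Perm

variable {G : Type*} [Group G] [Finite G] {v : G → ℤ}

theorem p4_num : ∀ k ≤ 224, k ∣ 224 → k % 3 = 1 % 3 →
    k = 1 ∨ k = 4 ∨ k = 7 ∨ k = 16 ∨ k = 28 ∨ k = 112 := by decide +kernel

theorem p4_ord (h9 : ∀ g : G, orderOf g ≠ 9) {P : Subgroup G} (hP : Nat.card P = 27) {w : G}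
    (hw : w ∈ P) (h1 : w ≠ 1) : orderOf w = 3 := by
  have h := P.orderOf_dvd_natCard hw
  rw [hP] at h
  obtain ⟨j, hj, e⟩ := (Nat.dvd_prime_pow (m := 3) Nat.prime_three).1 h
  interval_cases j
  · exact absurd (orderOf_eq_one_iff.1 e) h1
  · exact e
  · exact absurd e (h9 w)
  · exact absurd (by rw [orderOf_pow' w (by norm_num), e]; rfl) (h9 (w ^ 3))

theorem p4_seven (h : CV v) {x w : G} (hx : orderOf x = 7) (hw : orderOf w = 3)
    (e : w * x = x * w) : False := by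
  have h1 := Commute.orderOf_mul_eq_mul_orderOf_of_coprime (show Commute w x from e)
    (by rw [hx, hw]; norm_num)
  have h2 := h.seven (w * x) (by rw [h1, hx]; exact dvd_mul_left _ _)
  rw [h1, hx, hw] at h2
  omega

theorem p4_sub {D E : Subgroup G} (hD : Nat.card D = 9) (hE : E ≤ D) (hne : ¬ D ≤ E) {z : G}
    (hz : z ∈ E) (h1 : z ≠ 1) : E = zpowers z := by
  have h2 := card_dvd_of_le hE
  have h3 := card_dvd_of_le (zpowers_le.2 hz)
  have h4 : Nat.card E ≠ 9 := fun e => hne (eq_of_le_of_card_ge hE (by rw [e, hD])).ge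
  have h5 : Nat.card (zpowers z) ≠ 1 := by rwa [Ne, card_eq_one, zpowers_eq_bot]
  rw [hD] at h2
  obtain ⟨j, hj, e⟩ := (Nat.dvd_prime_pow (m := 2) Nat.prime_three).1 h2
  refine (eq_of_le_of_card_ge (zpowers_le.2 hz) ?_).symm
  rw [e] at h3 h4 ⊢
  interval_cases j
  · exact absurd (Nat.dvd_one.1 h3) h5
  · exact (((Nat.dvd_prime Nat.prime_three).1 h3).resolve_left h5).ge
  · exact absurd rfl h4

theorem p4_key (h : CV v) (h9 : ∀ g : G, orderOf g ≠ 9) {P : Subgroup G} (hP : Nat.card P = 27)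
    {q y : G} (hq : q ∈ P) (hy : y ∈ P) (hz : ∀ g ∈ P, g * (q * y * q⁻¹ * y⁻¹) = q * y * q⁻¹ * y⁻¹ * g)
    (hn : q * y ≠ y * q) : v (q * y * q⁻¹ * y⁻¹) = -3 ∧ v y ≠ -3 := by
  have hz1 : q * y * q⁻¹ * y⁻¹ ≠ 1 := by rwa [Ne, mul_inv_eq_one, mul_inv_eq_iff_eq_mul]
  have hzP : q * y * q⁻¹ * y⁻¹ ∈ P := mul_mem (mul_mem (mul_mem hq hy) (inv_mem hq)) (inv_mem hy)
  have e0 : q * y * q⁻¹ = q * y * q⁻¹ * y⁻¹ * y := by group
  generalize q * y * q⁻¹ * y⁻¹ = z at *
  have e1 : q * y * q⁻¹ = y * z := by rw [e0, hz y hy]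
  have e2 : q * (y * z) * q⁻¹ = y * z ^ 2 := by
    rw [← mul_assoc, mul_assoc _ z, ← hz _ (inv_mem hq), ← mul_assoc, e1, mul_assoc, sq]
  have hy3 := p4_ord h9 hP hy (by rintro rfl; simp at hn)
  have hz3 := p4_ord h9 hP hzP hz1
  obtain ⟨n, hn⟩ := h.rank2 y z hy3 hz3 (hz y hy)
  rw [← e2, h.cls, ← e1, h.cls] at hn
  rcases h.three y hy3 with a | a | a <;> rcases h.three z hz3 with b | b | b <;>
    rw [a, b] at hn ⊢ <;> omega

theorem p4_cen {P : Subgroup G} (hP : Nat.card P = 27) {q y : G} (hq : q ∈ P) (hy : y ∈ P) :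
    ∀ g ∈ P, g * (q * y * q⁻¹ * y⁻¹) = q * y * q⁻¹ * y⁻¹ * g := fun g hg =>
  congrArg Subtype.val (mem_center_iff.1 (comm_mem_center hP ⟨q, hq⟩ ⟨y, hy⟩) ⟨g, hg⟩)

theorem p4_C (h : CV v) (h9 : ∀ g : G, orderOf g ≠ 9) (P : Sylow 3 G) (hP : Nat.card P = 27)
    {D : Subgroup G} (hD : Nat.card D = 9) (hDP : D ≤ P) : centralizer (D : Set G) ≤ P := by
  have h1 : IsPGroup 3 (centralizer (D : Set G)) := by
    refine IsPGroup.of_card (Nat.eq_prime_pow_of_unique_prime_dvd Nat.card_pos.ne' fun {r} hr hd => ?_)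
    have := Fact.mk hr
    obtain ⟨u, hu⟩ := exists_prime_orderOf_dvd_card' r hd
    have h2 : r ∣ 2 ^ 5 * 3 ^ 3 * 7 := (hd.trans (card_subgroup_dvd_card _)).trans (by rw [h.card]; norm_num)
    rw [hr.dvd_mul, hr.dvd_mul] at h2
    rcases h2 with (h2 | h2) | h2
    · obtain rfl := (Nat.prime_dvd_prime_iff_eq hr Nat.prime_two).1 (hr.dvd_of_dvd_pow h2)
      exact (h.noinv u ((orderOf_coe u).trans hu) D hD u.2).elim
    · exact (Nat.prime_dvd_prime_iff_eq hr Nat.prime_three).1 (hr.dvd_of_dvd_pow h2)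
    · obtain rfl := (Nat.prime_dvd_prime_iff_eq hr (by norm_num)).1 h2
      obtain ⟨d, hd⟩ := exists_prime_orderOf_dvd_card' (G := D) 3 (by rw [hD]; norm_num)
      exact (p4_seven h ((orderOf_coe u).trans hu) ((orderOf_coe d).trans hd) (u.2 d d.2)).elim
  have h2 := card_mul_relIndex hDP
  rw [hD, hP] at h2
  have h3 : (D.subgroupOf P).Normal := normal_of_index_eq_minFac_card (by
    rw [hP]
    change D.relIndex P = _
    norm_num
    omega)
  have h4 := ((normal_subgroupOf_iff_le_normalizer hDP).1 h3).trans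
    (normalizer_le_normalizer_centralizer _)
  exact (P.is_maximal' (P.isPGroup'.to_sup_of_normal_right' h1 h4) le_sup_left) ▸ le_sup_right

theorem p4_pair (h : CV v) (h9 : ∀ g : G, orderOf g ≠ 9) {P P' D : Subgroup G} (hP : Nat.card P = 27)
    (hP' : Nat.card P' = 27) (hD : Nat.card D = 9) (e : D = P ⊓ P')
    (hC : centralizer (D : Set G) ≤ D) : False := by
  have l1 : D ≤ P := e ▸ inf_le_left
  have l2 : D ≤ P' := e ▸ inf_le_right
  obtain ⟨q, hq, hqD⟩ := SetLike.not_le_iff_exists.1 (fun hl : P ≤ D => by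
    have := card_le_of_le hl; omega)
  obtain ⟨q', hq', hqD'⟩ := SetLike.not_le_iff_exists.1 (fun hl : P' ≤ D => by
    have := card_le_of_le hl; omega)
  obtain ⟨y, hy, hn⟩ : ∃ y ∈ D, q * y ≠ y * q := by
    by_contra! hc
    exact hqD (hC fun y hy => (hc y hy).symm)
  have c1 := p4_cen hP hq (l1 hy)
  have k1 := (p4_key h h9 hP hq (l1 hy) c1 hn).1
  have hz1 : q * y * q⁻¹ * y⁻¹ ≠ 1 := by rwa [Ne, mul_inv_eq_one, mul_inv_eq_iff_eq_mul]
  have e0 : q * y = q * y * q⁻¹ * y⁻¹ * y * q := by group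
  generalize q * y * q⁻¹ * y⁻¹ = z at *
  have hzD : z ∈ D := hC fun d hd => c1 d (l1 hd)
  have c2 : ∀ g ∈ P', g * z = z * g := fun g hg => by
    by_contra hc
    exact (p4_key h h9 hP' hg (l2 hzD) (p4_cen hP' hg (l2 hzD)) hc).2 k1
  have gen : ∀ g : G, g * y = y * g → g * z = z * g → g ∈ D := fun g h1 h2 => by
    by_contra hg
    have h3 := p4_sub (E := D ⊓ centralizer {g}) hD inf_le_left
      (fun hl => hg (hC fun d hd => (mem_centralizer_singleton_iff.1 (hl hd).2)))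
      ⟨hzD, mem_centralizer_singleton_iff.2 h2.symm⟩ hz1
    obtain ⟨k, hk⟩ := h3.le ⟨hy, mem_centralizer_singleton_iff.2 h1.symm⟩
    exact hn (hk ▸ (show Commute q z from c1 q hq).zpow_right k)
  have hn' : q' * y ≠ y * q' := fun hc => hqD' (gen q' hc (c2 q' hq'))
  have c3 := p4_cen hP' hq' (l2 hy)
  have k2 := (p4_key h h9 hP' hq' (l2 hy) c3 hn').1
  have e1 : q' * y = q' * y * q'⁻¹ * y⁻¹ * y * q' := by group
  generalize q' * y * q'⁻¹ * y⁻¹ = z' at *
  have hzD' : z' ∈ D := hC fun d hd => c3 d (l2 hd)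
  have c4 : q * z' = z' * q := by
    by_contra hc
    exact (p4_key h h9 hP hq (l1 hzD') (p4_cen hP hq (l1 hzD')) hc).2 k2
  have h3 := p4_sub (E := D ⊓ centralizer {q}) hD inf_le_left
    (fun hl => hn (mem_centralizer_singleton_iff.1 (hl hy).2).symm)
    ⟨hzD, mem_centralizer_singleton_iff.2 (c1 q hq).symm⟩ hz1
  obtain ⟨k, hk⟩ := mem_powers_iff_mem_zpowers.2
    (h3.le ⟨hzD', mem_centralizer_singleton_iff.2 c4.symm⟩)
  have cq : Commute q z := c1 q hq
  have h4 : ∀ n : ℕ, q ^ n * y = z ^ n * y * q ^ n := fun n => by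
    induction n with
    | zero => simp
    | succ n ih =>
      rw [pow_succ', mul_assoc, ih, ← mul_assoc, ← mul_assoc, (cq.pow_right n).eq, mul_assoc (z ^ n),
        e0, pow_succ z]
      simp only [mul_assoc]
  have h5 : q'⁻¹ * q ^ k ∈ D := gen _ (by
      rw [mul_assoc, h4, show z ^ k = z' from hk, inv_mul_eq_iff_eq_mul, ← mul_assoc, ← mul_assoc, e1]
      simp only [mul_assoc, mul_inv_cancel_left])
    ((show Commute q' z from c2 q' hq').inv_left.mul_left (cq.pow_left k))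
  have h6 : q' ∈ P := by simpa using inv_mem (mul_mem (l1 h5) (inv_mem (pow_mem hq k)))
  exact hqD' (e ▸ ⟨h6, hq'⟩)

theorem CV.index28 [IsSimpleGroup G] (h : CV v) (h9 : ∀ g : G, orderOf g ≠ 9) (Q : Sylow 3 G) :
    (Subgroup.normalizer ((Q : Subgroup G) : Set G)).index = 28 := by
  have hc := h.card
  have hab : ¬ IsMulCommutative G := not_comm_of_not_prime (by rw [hc]; norm_num)
  have hP : ∀ P : Sylow 3 G, Nat.card P = 27 := fun P =>
    sylow_card_eq P (a := 3) (m := 224) (by rw [hc]; norm_num) (by norm_num)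
  have h1 := card_sylow_dvd (G := G) (p := 3) (a := 3) (m := 224) (by rw [hc]; norm_num) (by norm_num)
  have h2 := two_mul_card_dvd_factorial_sylow (p := 3) hab (by rw [hc]; norm_num)
  have h3 := card_sylow_mul Q
  rw [Sylow.coe_coe, ← Q.card_eq_index_normalizer]
  rw [hc] at h2 h3
  rcases p4_num _ (Nat.le_of_dvd (by norm_num) h1) h1 (card_sylow_modEq_one 3 G) with
    e | e | e | e | e | e
  · rw [e] at h2; exact absurd h2 (by decide)
  · rw [e] at h2; exact absurd h2 (by decide)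
  · rw [e] at h2; exact absurd h2 (by decide)
  · exfalso
    rw [e] at h3
    have : Fact (Nat.Prime 7) := ⟨by norm_num⟩
    obtain ⟨x, hx⟩ := exists_prime_orderOf_dvd_card' (G := normalizer ((Q : Subgroup G) : Set G)) 7
      (by omega)
    let _ := MulAction.compHom (Q : Subgroup G) (Q : Subgroup G).normalizerMonoidHom
    have h4 := Gl23.card_fixedBy_modEq' (Ω := (Q : Subgroup G)) (by norm_num : Nat.Prime 7) (x := x)
      (hx ▸ pow_orderOf_eq_one x)
    have h5 : fixedBy (Q : Subgroup G) x = {1} := by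
      refine Set.eq_singleton_iff_unique_mem.2 ⟨Subtype.ext (by
        change (x : G) * 1 * (x : G)⁻¹ = 1
        simp), fun w hw => ?_⟩
      by_contra h6
      have h7 : (x : G) * w * (x : G)⁻¹ = w := congrArg Subtype.val hw
      exact p4_seven h ((orderOf_coe x).trans hx) (p4_ord h9 (hP Q) w.2 fun e => h6 (Subtype.ext e))
        (mul_inv_eq_iff_eq_mul.1 h7).symm
    rw [h5, hP Q] at h4
    simp [Nat.ModEq] at h4
  · exact e
  · exfalso
    obtain ⟨R, hR, j, hj, h4⟩ := exists_sylow_relIndex_le Q (k := 2) (by rw [e]; decide)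
    have h5 := card_mul_relIndex (inf_le_right : (R : Subgroup G) ⊓ Q ≤ Q)
    rw [inf_relIndex_right, h4, hP Q] at h5
    interval_cases j
    · exact hR (Sylow.ext (eq_of_le_of_card_ge (relIndex_eq_one.1 h4) (by rw [hP, hP])).symm)
    · have h6 : Nat.card ↥((R : Subgroup G) ⊓ Q) = 9 := by omega
      exact p4_pair h h9 (hP R) (hP Q) h6 rfl
        (le_inf (p4_C h h9 R (hP R) h6 inf_le_left) (p4_C h h9 Q (hP Q) h6 inf_le_right))

end Cfsg.Agent.U33
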